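import Mathlib
import Cfsg.Agent.Lib.Helper33.FrakL.SL2Quad

set_option autoImplicit false
set_option linter.unusedSimpArgs false
set_option linter.unusedVariables false

/-!
# S3009: an irreducible `SL₂(F)`-module which is quadratic for a Sylow `p`-subgroup, or small, is
the natural module.  Definitions, matrix identities and package statements (helper33).

Everything is phrased for a homomorphism `ρ : SL₂(F) →* MulAut V`, `V` a commutative group written
multiplicatively.  `xe`, `ye` are the root elements of `Helper48.FrakL.Defs`, `nn t`, `fixX ρ`,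
`fixY ρ`, `Hyp ρ` are those of `Helper33.FrakL.SL2Quad`.
-/

namespace Cfsg.Agent.Lib.Helper33.SL2Nat

open Cfsg.Agent.Lib.Helper48.FrakL Cfsg.Agent.Lib.Helper33.FrakL

universe u v

section Mat

variable {F : Type u} [Field F]

/-- The diagonal element `diag(t, t⁻¹)` (for `t ≠ 0`). -/
def dd (t : F) : Matrix.SpecialLinearGroup (Fin 2) F := nn t * nn (-1)

theorem dd_00 {t : F} (ht : t ≠ 0) : (dd t) 0 0 = t := by
  have hm1 : (-1 : F) ≠ 0 := neg_ne_zero.mpr one_ne_zero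
  simp only [dd, mul_00, mul_01, mul_10, mul_11, nn_00 ht, nn_01 ht, nn_10 ht, nn_11 ht, nn_00 hm1,
    nn_01 hm1, nn_10 hm1, nn_11 hm1]
  field_simp
  ring

theorem dd_01 {t : F} (ht : t ≠ 0) : (dd t) 0 1 = 0 := by
  have hm1 : (-1 : F) ≠ 0 := neg_ne_zero.mpr one_ne_zero
  simp only [dd, mul_00, mul_01, mul_10, mul_11, nn_00 ht, nn_01 ht, nn_10 ht, nn_11 ht, nn_00 hm1,
    nn_01 hm1, nn_10 hm1, nn_11 hm1]
  ring

theorem dd_10 {t : F} (ht : t ≠ 0) : (dd t) 1 0 = 0 := by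
  have hm1 : (-1 : F) ≠ 0 := neg_ne_zero.mpr one_ne_zero
  simp only [dd, mul_00, mul_01, mul_10, mul_11, nn_00 ht, nn_01 ht, nn_10 ht, nn_11 ht, nn_00 hm1,
    nn_01 hm1, nn_10 hm1, nn_11 hm1]
  ring

theorem dd_11 {t : F} (ht : t ≠ 0) : (dd t) 1 1 = t⁻¹ := by
  have hm1 : (-1 : F) ≠ 0 := neg_ne_zero.mpr one_ne_zero
  simp only [dd, mul_00, mul_01, mul_10, mul_11, nn_00 ht, nn_01 ht, nn_10 ht, nn_11 ht, nn_00 hm1,
    nn_01 hm1, nn_10 hm1, nn_11 hm1]
  field_simp
  ring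

theorem dd_one : dd (1 : F) = 1 := by
  have h1 : (1 : F) ≠ 0 := one_ne_zero
  apply sl2_ext <;>
    simp only [dd_00 h1, dd_01 h1, dd_10 h1, dd_11 h1, one_00, one_01, one_10, one_11, inv_one]

theorem dd_mul_dd {a b : F} (ha : a ≠ 0) (hb : b ≠ 0) : dd a * dd b = dd (a * b) := by
  have hab : a * b ≠ 0 := mul_ne_zero ha hb
  apply sl2_ext <;>
    simp only [mul_00, mul_01, mul_10, mul_11, dd_00 ha, dd_01 ha, dd_10 ha, dd_11 ha, dd_00 hb,
      dd_01 hb, dd_10 hb, dd_11 hb, dd_00 hab, dd_01 hab, dd_10 hab, dd_11 hab] <;>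
    field_simp <;> ring

/-- `d(a) n(t) = n(a t)`. -/
theorem dd_mul_nn {a t : F} (ha : a ≠ 0) (ht : t ≠ 0) : dd a * nn t = nn (a * t) := by
  have hat : a * t ≠ 0 := mul_ne_zero ha ht
  apply sl2_ext <;>
    simp only [mul_00, mul_01, mul_10, mul_11, dd_00 ha, dd_01 ha, dd_10 ha, dd_11 ha, nn_00 ht,
      nn_01 ht, nn_10 ht, nn_11 ht, nn_00 hat, nn_01 hat, nn_10 hat, nn_11 hat] <;>
    field_simp <;> ring

/-- `n(a) n(b) = d(-a / b)`. -/
theorem nn_mul_nn {a b : F} (ha : a ≠ 0) (hb : b ≠ 0) : nn a * nn b = dd (-a / b) := by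
  have hab : -a / b ≠ 0 := div_ne_zero (neg_ne_zero.mpr ha) hb
  apply sl2_ext <;>
    simp only [mul_00, mul_01, mul_10, mul_11, nn_00 ha, nn_01 ha, nn_10 ha, nn_11 ha, nn_00 hb,
      nn_01 hb, nn_10 hb, nn_11 hb, dd_00 hab, dd_01 hab, dd_10 hab, dd_11 hab] <;>
    field_simp <;> ring

/-- `x(s) d(a) = d(a) x(s / a²)`. -/
theorem xe_mul_dd {a : F} (ha : a ≠ 0) (s : F) : xe s * dd a = dd a * xe (s / a ^ 2) := by
  apply sl2_ext <;>
    simp only [mul_00, mul_01, mul_10, mul_11, dd_00 ha, dd_01 ha, dd_10 ha, dd_11 ha, xe_00,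
      xe_01, xe_10, xe_11] <;>
    field_simp <;> ring

/-- `y(s) d(a) = d(a) y(s a²)`. -/
theorem ye_mul_dd {a : F} (ha : a ≠ 0) (s : F) : ye s * dd a = dd a * ye (s * a ^ 2) := by
  apply sl2_ext <;>
    simp only [mul_00, mul_01, mul_10, mul_11, dd_00 ha, dd_01 ha, dd_10 ha, dd_11 ha, ye_00,
      ye_01, ye_10, ye_11] <;>
    field_simp <;> ring

/-- `y(t) = n(1)⁻¹ x(-t) n(1)`, in the form `n(-1) x(-t) n(1)`. -/
theorem ye_eq_conj (t : F) : ye t = nn (-1) * xe (-t) * nn 1 := by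
  have h1 : (1 : F) ≠ 0 := one_ne_zero
  have hm1 : (-1 : F) ≠ 0 := neg_ne_zero.mpr one_ne_zero
  apply sl2_ext <;>
    simp only [mul_00, mul_01, mul_10, mul_11, nn_00 h1, nn_01 h1, nn_10 h1, nn_11 h1, nn_00 hm1,
      nn_01 hm1, nn_10 hm1, nn_11 hm1, xe_00, xe_01, xe_10, xe_11, ye_00, ye_01, ye_10, ye_11] <;>
    field_simp <;> ring

theorem nn_neg_one_mul_nn_one : nn (-1 : F) * nn 1 = 1 := by
  have := nn_mul_nn_neg (t := (-1 : F)) (neg_ne_zero.mpr one_ne_zero)
  rwa [neg_neg] at this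

theorem nn_one_mul_nn_neg_one : nn (1 : F) * nn (-1) = 1 :=
  nn_mul_nn_neg (t := (1 : F)) one_ne_zero

/-- Bruhat decomposition with respect to the lower triangular group. -/
theorem exists_bruhat (g : Matrix.SpecialLinearGroup (Fin 2) F) :
    (∃ a c b : F, c ≠ 0 ∧ g = xe a * dd c * ye b) ∨ (∃ c b : F, c ≠ 0 ∧ g = nn c * ye b) := by
  have hd := det_eq g
  by_cases h11 : g 1 1 = 0
  · right
    rw [h11, mul_zero, zero_sub] at hd
    have hb : g 0 1 ≠ 0 := by
      intro h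
      rw [h, zero_mul, neg_zero] at hd
      exact zero_ne_one hd
    refine ⟨g 0 1, g 0 0 / g 0 1, hb, ?_⟩
    have hc : g 1 0 = -(g 0 1)⁻¹ := by
      field_simp
      linear_combination -hd
    apply sl2_ext <;>
      simp only [mul_00, mul_01, mul_10, mul_11, nn_00 hb, nn_01 hb, nn_10 hb, nn_11 hb, ye_00,
        ye_01, ye_10, ye_11, h11, hc] <;>
      field_simp <;> ring
  · left
    have hinv : (g 1 1)⁻¹ ≠ 0 := inv_ne_zero h11
    refine ⟨g 0 1 / g 1 1, (g 1 1)⁻¹, g 1 0 / g 1 1, hinv, ?_⟩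
    have ha : g 0 0 = (1 + g 0 1 * g 1 0) / g 1 1 := by
      field_simp
      linear_combination hd
    apply sl2_ext <;>
      simp only [mul_00, mul_01, mul_10, mul_11, dd_00 hinv, dd_01 hinv, dd_10 hinv, dd_11 hinv,
        xe_00, xe_01, xe_10, xe_11, ye_00, ye_01, ye_10, ye_11, ha] <;>
      field_simp <;> ring

/-- `SL₂(F)` is generated by the root elements: an induction principle. -/
theorem sl2_induction {P : Matrix.SpecialLinearGroup (Fin 2) F → Prop} (h1 : P 1)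
    (hx : ∀ (t : F) (g : Matrix.SpecialLinearGroup (Fin 2) F), P g → P (xe t * g))
    (hy : ∀ (t : F) (g : Matrix.SpecialLinearGroup (Fin 2) F), P g → P (ye t * g))
    (g : Matrix.SpecialLinearGroup (Fin 2) F) : P g := by
  -- `g` with `g 1 0 ≠ 0` is `x(a) y(c) x(b)`
  have key : ∀ g : Matrix.SpecialLinearGroup (Fin 2) F, g 1 0 ≠ 0 → P g := by
    intro g hc
    have hd := det_eq g
    have e : g = xe ((g 0 0 - 1) / g 1 0) * (ye (g 1 0) * (xe ((g 1 1 - 1) / g 1 0) * 1)) := by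
      have hb : g 0 1 = (g 0 0 * g 1 1 - 1) / g 1 0 := by
        field_simp
        linear_combination -hd
      apply sl2_ext <;>
        simp only [mul_00, mul_01, mul_10, mul_11, xe_00, xe_01, xe_10, xe_11, ye_00, ye_01, ye_10,
          ye_11, one_00, one_01, one_10, one_11, hb] <;>
        field_simp <;> ring
    rw [e]
    exact hx _ _ (hy _ _ (hx _ _ h1))
  by_cases hc : g 1 0 = 0
  · have hd := det_eq g
    rw [hc, mul_zero, sub_zero] at hd
    have ha : g 0 0 ≠ 0 := by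
      intro h
      rw [h, zero_mul] at hd
      exact zero_ne_one hd
    have e : g = ye (-1) * (ye 1 * g) := by
      rw [← mul_assoc, ye_add, neg_add_cancel, ye_zero, one_mul]
    rw [e]
    apply hy
    apply key
    simp only [mul_00, mul_01, mul_10, mul_11, ye_00, ye_01, ye_10, ye_11, hc]
    simpa using ha
  · exact key g hc

end Mat

section Mod

variable {F : Type u} [Field F] {V : Type v} [CommGroup V]

/-- The module has no proper nontrivial invariant subgroup. -/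
def Irr (ρ : Matrix.SpecialLinearGroup (Fin 2) F →* MulAut V) : Prop :=
  ∀ W : Subgroup V, (∀ (g : Matrix.SpecialLinearGroup (Fin 2) F), ∀ w ∈ W, ρ g w ∈ W) →
    W = ⊥ ∨ W = ⊤

/-- The action is nontrivial. -/
def Nontriv (ρ : Matrix.SpecialLinearGroup (Fin 2) F →* MulAut V) : Prop :=
  ∃ (g : Matrix.SpecialLinearGroup (Fin 2) F) (v : V), ρ g v ≠ v

/-- The upper unitriangular group acts quadratically. -/
def QuadX (ρ : Matrix.SpecialLinearGroup (Fin 2) F →* MulAut V) : Prop :=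
  ∀ (t : F) (v : V), ρ (xe t) v * v⁻¹ ∈ fixX ρ

/-- `V` is the natural module. -/
def IsNat (ρ : Matrix.SpecialLinearGroup (Fin 2) F →* MulAut V) : Prop :=
  ∃ ψ : V ≃* Multiplicative (Fin 2 → F), ∀ (g : Matrix.SpecialLinearGroup (Fin 2) F) (v : V),
    Multiplicative.toAdd (ψ (ρ g v)) =
      (g : Matrix (Fin 2) (Fin 2) F).mulVec (Multiplicative.toAdd (ψ v))

end Mod

/-! ## Packages -/

/-- (M1) the natural module from the decomposition `V = C_V(U⁺) × C_V(U⁻)`. -/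
def NatOfHyp.{w, z} : Prop :=
  ∀ {F : Type w} [Field F] {V : Type z} [CommGroup V]
    (ρ : Matrix.SpecialLinearGroup (Fin 2) F →* MulAut V), Hyp ρ → Irr ρ → Nontriv ρ → IsNat ρ

/-- (M2) an irreducible nontrivial module with `U⁺` quadratic satisfies `Hyp`. -/
def HypOfQuad.{w, z} : Prop :=
  ∀ {F : Type w} [Field F] {V : Type z} [CommGroup V]
    (ρ : Matrix.SpecialLinearGroup (Fin 2) F →* MulAut V), Irr ρ → Nontriv ρ → QuadX ρ → Hyp ρ

/-- (M3a) the second fixed-point layer of `U⁺` on a finite `p`-group. -/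
def SecondLayer.{w, z} : Prop :=
  ∀ {F : Type w} [Field F] [Finite F] {p : ℕ} [Fact p.Prime] [CharP F p] {V : Type z}
    [CommGroup V] [Finite V] (ρ : Matrix.SpecialLinearGroup (Fin 2) F →* MulAut V),
    IsPGroup p V → fixX ρ ≠ ⊤ →
    ∃ v : V, v ∉ fixX ρ ∧ ∀ s : F, ρ (xe s) v * v⁻¹ ∈ fixX ρ

/-- (M3b) a small irreducible module is quadratic. -/
def QuadOfCard.{w, z} : Prop :=
  ∀ {F : Type w} [Field F] [Finite F] {p : ℕ} [Fact p.Prime] [CharP F p] {V : Type z}
    [CommGroup V] [Finite V] (ρ : Matrix.SpecialLinearGroup (Fin 2) F →* MulAut V),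
    IsPGroup p V → Irr ρ → Nontriv ρ → Nat.card V ≤ Nat.card (fixX ρ) ^ 2 → QuadX ρ

/-- The abstract theorem. -/
def NatThm.{w, z} : Prop :=
  ∀ {F : Type w} [Field F] [Finite F] {p : ℕ} [Fact p.Prime] [CharP F p] {V : Type z}
    [CommGroup V] [Finite V] (ρ : Matrix.SpecialLinearGroup (Fin 2) F →* MulAut V),
    IsPGroup p V → Irr ρ → Nontriv ρ → (QuadX ρ ∨ Nat.card V ≤ Nat.card (fixX ρ) ^ 2) → IsNat ρ

theorem natThm_of (h1 : NatOfHyp.{u, v}) (h2 : HypOfQuad.{u, v}) (h3 : QuadOfCard.{u, v}) :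
    NatThm.{u, v} := by
  intro F _ _ p _ _ V _ _ ρ hV hirr hnt hyp
  have hq : QuadX ρ := by
    rcases hyp with h | h
    · exact h
    · exact h3 ρ hV hirr hnt h
  exact h1 ρ (h2 ρ hirr hnt hq) hirr hnt

end Cfsg.Agent.Lib.Helper33.SL2Nat
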