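import Mathlib
import Cfsg.Agent.Lib.Helper33.SL2Nat.Defs

set_option autoImplicit false
set_option linter.unusedSimpArgs false
set_option linter.unusedVariables false

/-!
# S3009, package (M1): the natural module from `V = C_V(U⁺) × C_V(U⁻)` (helper33)
-/

namespace Cfsg.Agent.Lib.Helper33.SL2Nat

open Cfsg.Agent.Lib.Helper48.FrakL Cfsg.Agent.Lib.Helper33.FrakL

universe u v

section Coord

variable {F : Type u} [Field F] {V : Type v} [CommGroup V]
  {ρ : Matrix.SpecialLinearGroup (Fin 2) F →* MulAut V}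

/-- `c ↦ c • e₁`, where `e₁ = n(1) m`. -/
def e1 (ρ : Matrix.SpecialLinearGroup (Fin 2) F →* MulAut V) (m : V) (c : F) : V :=
  ρ (xe c) m * m⁻¹

/-- `c ↦ c • e₂`, where `e₂ = m`. -/
def e2 (ρ : Matrix.SpecialLinearGroup (Fin 2) F →* MulAut V) (m : V) (c : F) : V :=
  ρ (ye (-c)) (ρ (nn (-1)) m) * (ρ (nn (-1)) m)⁻¹

theorem e1_mem (H : Hyp ρ) (m : V) (c : F) : e1 ρ m c ∈ fixX ρ := H.h3 c m

theorem e2_mem (H : Hyp ρ) (m : V) (c : F) : e2 ρ m c ∈ fixY ρ := H.h4 (-c) _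

theorem e1_add (H : Hyp ρ) (m : V) (a b : F) : e1 ρ m (a + b) = e1 ρ m a * e1 ρ m b :=
  (H.xe_add_comm a b m).symm

theorem e2_add (H : Hyp ρ) (m : V) (a b : F) : e2 ρ m (a + b) = e2 ρ m a * e2 ρ m b := by
  unfold e2
  rw [neg_add]
  exact (H.ye_add_comm (-a) (-b) _).symm

theorem e1_zero (m : V) : e1 ρ m 0 = 1 := by
  unfold e1
  rw [xe_zero, map_one]
  show m * m⁻¹ = 1
  exact mul_inv_cancel m

theorem e2_zero (m : V) : e2 ρ m 0 = 1 := by
  unfold e2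
  rw [neg_zero, ye_zero, map_one]
  exact mul_inv_cancel _

theorem e1_neg (H : Hyp ρ) (m : V) (a : F) : e1 ρ m (-a) = (e1 ρ m a)⁻¹ := by
  have h := e1_add H m a (-a)
  rw [add_neg_cancel, e1_zero] at h
  exact eq_inv_of_mul_eq_one_right h.symm

theorem e2_neg (H : Hyp ρ) (m : V) (a : F) : e2 ρ m (-a) = (e2 ρ m a)⁻¹ := by
  have h := e2_add H m a (-a)
  rw [add_neg_cancel, e2_zero] at h
  exact eq_inv_of_mul_eq_one_right h.symm

theorem e1_eq (H : Hyp ρ) {m : V} (hm : m ∈ fixY ρ) {c : F} (hc : c ≠ 0) :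
    e1 ρ m c = ρ (nn c) m :=
  ((H.nn_apply_Y hc hm).1).symm

theorem e2_eq (H : Hyp ρ) {m : V} (hm : m ∈ fixY ρ) {c : F} (hc : c ≠ 0) :
    e2 ρ m c = ρ (dd c⁻¹) m := by
  have hm1 : (-1 : F) ≠ 0 := neg_ne_zero.mpr one_ne_zero
  have hci : c⁻¹ ≠ 0 := inv_ne_zero hc
  have hv0 : ρ (nn (-1)) m ∈ fixX ρ := nn_map_fixY hm1 hm
  have h1 := (H.nn_apply_X hci hv0).1
  rw [inv_inv] at h1
  unfold e2 dd
  rw [rho_mul, h1]

theorem e2_one (H : Hyp ρ) {m : V} (hm : m ∈ fixY ρ) : e2 ρ m 1 = m := by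
  rw [e2_eq H hm one_ne_zero, inv_one, dd_one, map_one]
  rfl

theorem e1_eq_one (H : Hyp ρ) {m : V} (hm : m ∈ fixY ρ) (hm1 : m ≠ 1) {c : F}
    (h : e1 ρ m c = 1) : c = 0 := by
  by_contra hc
  rw [e1_eq H hm hc] at h
  apply hm1
  have := (ρ (nn c)).injective (a₁ := m) (a₂ := 1) (by rw [h, map_one])
  exact this

theorem e2_eq_one (H : Hyp ρ) {m : V} (hm : m ∈ fixY ρ) (hm1 : m ≠ 1) {c : F}
    (h : e2 ρ m c = 1) : c = 0 := by
  by_contra hc
  rw [e2_eq H hm hc] at h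
  apply hm1
  have := (ρ (dd c⁻¹)).injective (a₁ := m) (a₂ := 1) (by rw [h, map_one])
  exact this

/-- `x(s)` on `c • e₂`. -/
theorem xe_e2 (H : Hyp ρ) {m : V} (hm : m ∈ fixY ρ) (s c : F) :
    ρ (xe s) (e2 ρ m c) = e2 ρ m c * e1 ρ m (s * c) := by
  by_cases hc : c = 0
  · subst hc
    rw [e2_zero, mul_zero, e1_zero, map_one, mul_one]
  by_cases hs : s = 0
  · subst hs
    rw [zero_mul, e1_zero, xe_zero, map_one, mul_one]
    rfl
  have hci : c⁻¹ ≠ 0 := inv_ne_zero hc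
  have hsc : s * c ≠ 0 := mul_ne_zero hs hc
  have hsc2 : s / c⁻¹ ^ 2 ≠ 0 := div_ne_zero hs (pow_ne_zero 2 hci)
  rw [e2_eq H hm hc, ← rho_mul, xe_mul_dd hci, rho_mul]
  have h1 : ρ (xe (s / c⁻¹ ^ 2)) m = e1 ρ m (s / c⁻¹ ^ 2) * m := by
    unfold e1
    rw [inv_mul_cancel_right]
  rw [h1, map_mul, e1_eq H hm hsc2, ← rho_mul, dd_mul_nn hci hsc2, e1_eq H hm hsc, mul_comm]
  have h2 : c⁻¹ * (s / c⁻¹ ^ 2) = s * c := by
    field_simp
  rw [h2]

/-- `y(s)` on `c • e₁`. -/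
theorem ye_e1 (H : Hyp ρ) {m : V} (hm : m ∈ fixY ρ) (s c : F) :
    ρ (ye s) (e1 ρ m c) = e1 ρ m c * e2 ρ m (s * c) := by
  by_cases hc : c = 0
  · subst hc
    rw [e1_zero, mul_zero, e2_zero, map_one, mul_one]
  by_cases hs : s = 0
  · subst hs
    rw [zero_mul, e2_zero, ye_zero, map_one, mul_one]
    rfl
  have hsc : s * c ≠ 0 := mul_ne_zero hs hc
  have hsi : -s⁻¹ ≠ 0 := neg_ne_zero.mpr (inv_ne_zero hs)
  have hv : e1 ρ m c ∈ fixX ρ := e1_mem H m c
  have h1 := (H.nn_apply_X hsi hv).1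
  have h2 : -(-s⁻¹)⁻¹ = s := by
    rw [inv_neg, inv_inv, neg_neg]
  rw [h2] at h1
  have h3 : ρ (ye s) (e1 ρ m c) = e1 ρ m c * ρ (nn (-s⁻¹)) (e1 ρ m c) := by
    rw [h1, mul_comm, inv_mul_cancel_right]
  rw [h3, e1_eq H hm hc, ← rho_mul, nn_mul_nn hsi hc, e2_eq H hm hsc]
  have h4 : -(-s⁻¹) / c = (s * c)⁻¹ := by
    field_simp
  rw [h4]

/-- The coordinate map. -/
def coord (ρ : Matrix.SpecialLinearGroup (Fin 2) F →* MulAut V) (m : V) (w : Fin 2 → F) : V :=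
  e1 ρ m (w 0) * e2 ρ m (w 1)

theorem coord_add (H : Hyp ρ) (m : V) (w w' : Fin 2 → F) :
    coord ρ m (w + w') = coord ρ m w * coord ρ m w' := by
  unfold coord
  rw [Pi.add_apply, Pi.add_apply, e1_add H, e2_add H]
  exact mul_mul_mul_comm _ _ _ _

theorem coord_zero (m : V) : coord ρ m 0 = 1 := by
  unfold coord
  rw [Pi.zero_apply, Pi.zero_apply, e1_zero, e2_zero, mul_one]

theorem coord_neg (H : Hyp ρ) (m : V) (w : Fin 2 → F) : coord ρ m (-w) = (coord ρ m w)⁻¹ := by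
  unfold coord
  rw [Pi.neg_apply, Pi.neg_apply, e1_neg H, e2_neg H, mul_inv]

theorem xe_coord (H : Hyp ρ) {m : V} (hm : m ∈ fixY ρ) (s : F) (w : Fin 2 → F) :
    ρ (xe s) (coord ρ m w) =
      coord ρ m ((xe s : Matrix (Fin 2) (Fin 2) F).mulVec w) := by
  have hmv0 : ((xe s : Matrix (Fin 2) (Fin 2) F).mulVec w) 0 = w 0 + s * w 1 := by
    simp [Matrix.mulVec, dotProduct, Fin.sum_univ_two, xe_00, xe_01]
  have hmv1 : ((xe s : Matrix (Fin 2) (Fin 2) F).mulVec w) 1 = w 1 := by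
    simp [Matrix.mulVec, dotProduct, Fin.sum_univ_two, xe_10, xe_11]
  unfold coord
  rw [hmv0, hmv1, map_mul, e1_mem H m (w 0) s, xe_e2 H hm, e1_add H]
  rw [mul_comm (e2 ρ m (w 1)), ← mul_assoc]

theorem ye_coord (H : Hyp ρ) {m : V} (hm : m ∈ fixY ρ) (s : F) (w : Fin 2 → F) :
    ρ (ye s) (coord ρ m w) =
      coord ρ m ((ye s : Matrix (Fin 2) (Fin 2) F).mulVec w) := by
  have hmv0 : ((ye s : Matrix (Fin 2) (Fin 2) F).mulVec w) 0 = w 0 := by
    simp [Matrix.mulVec, dotProduct, Fin.sum_univ_two, ye_00, ye_01]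
  have hmv1 : ((ye s : Matrix (Fin 2) (Fin 2) F).mulVec w) 1 = s * w 0 + w 1 := by
    simp [Matrix.mulVec, dotProduct, Fin.sum_univ_two, ye_10, ye_11]
  unfold coord
  rw [hmv0, hmv1, map_mul, e2_mem H m (w 1) s, ye_e1 H hm, e2_add H, mul_assoc]

theorem rho_coord (H : Hyp ρ) {m : V} (hm : m ∈ fixY ρ)
    (g : Matrix.SpecialLinearGroup (Fin 2) F) :
    ∀ w : Fin 2 → F, ρ g (coord ρ m w) = coord ρ m ((g : Matrix (Fin 2) (Fin 2) F).mulVec w) := by
  induction g using sl2_induction with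
  | h1 =>
    intro w
    rw [map_one, Matrix.SpecialLinearGroup.coe_one, Matrix.one_mulVec]
    rfl
  | hx t g ih =>
    intro w
    rw [rho_mul, ih, xe_coord H hm, Matrix.SpecialLinearGroup.coe_mul, Matrix.mulVec_mulVec]
  | hy t g ih =>
    intro w
    rw [rho_mul, ih, ye_coord H hm, Matrix.SpecialLinearGroup.coe_mul, Matrix.mulVec_mulVec]

theorem coord_injective (H : Hyp ρ) {m : V} (hm : m ∈ fixY ρ) (hm1 : m ≠ 1) {w : Fin 2 → F}
    (h : coord ρ m w = 1) : w = 0 := by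
  unfold coord at h
  have h1 : e1 ρ m (w 0) = (e2 ρ m (w 1))⁻¹ := eq_inv_of_mul_eq_one_left h
  have h2 : e1 ρ m (w 0) = 1 :=
    H.h1 _ (e1_mem H m _) (by rw [h1]; exact (fixY ρ).inv_mem (e2_mem H m _))
  have h3 : e2 ρ m (w 1) = 1 := by
    rw [h2, one_mul] at h
    exact h
  funext i
  fin_cases i
  · exact e1_eq_one H hm hm1 h2
  · exact e2_eq_one H hm hm1 h3

/-- The image of the coordinate map. -/
def coordRange (ρ : Matrix.SpecialLinearGroup (Fin 2) F →* MulAut V) (H : Hyp ρ) (m : V) :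
    Subgroup V where
  carrier := {v | ∃ w : Fin 2 → F, v = coord ρ m w}
  mul_mem' := by
    rintro _ _ ⟨w, rfl⟩ ⟨w', rfl⟩
    exact ⟨w + w', (coord_add H m w w').symm⟩
  one_mem' := ⟨0, (coord_zero m).symm⟩
  inv_mem' := by
    rintro _ ⟨w, rfl⟩
    exact ⟨-w, (coord_neg H m w).symm⟩

end Coord

/-- Package (M1). -/
theorem natOfHyp : NatOfHyp.{u, v} := by
  intro F _ V _ ρ H hirr hnt
  -- a nontrivial element of `fixY`
  have hex : ∃ m ∈ fixY ρ, m ≠ 1 := by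
    by_contra hcon
    push Not at hcon
    obtain ⟨g, v, hgv⟩ := hnt
    have hall : ∀ v : V, v = 1 := by
      intro v
      obtain ⟨v1, hv1, v2, hv2, rfl⟩ := H.h2 v
      have h2 : v2 = 1 := hcon v2 hv2
      have h1 : ρ (nn 1) v1 = 1 := hcon _ (nn_map_fixX one_ne_zero hv1)
      have h1' : v1 = 1 := by
        have := (ρ (nn 1)).injective (a₁ := v1) (a₂ := 1) (by rw [h1, map_one])
        exact this
      rw [h1', h2, mul_one]
    apply hgv
    rw [hall v, map_one]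
  obtain ⟨m, hm, hm1⟩ := hex
  -- the range of the coordinate map is everything
  have hinv : ∀ (g : Matrix.SpecialLinearGroup (Fin 2) F), ∀ w ∈ coordRange ρ H m,
      ρ g w ∈ coordRange ρ H m := by
    rintro g _ ⟨w, rfl⟩
    exact ⟨_, rho_coord H hm g w⟩
  have htop : coordRange ρ H m = ⊤ := by
    rcases hirr _ hinv with h | h
    · exfalso
      apply hm1
      have hmem : m ∈ coordRange ρ H m := by
        refine ⟨![0, 1], ?_⟩
        unfold coord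
        simp only [Matrix.cons_val_zero, Matrix.cons_val_one]
        rw [e1_zero, one_mul, e2_one H hm]
      rw [h] at hmem
      exact (Subgroup.mem_bot).mp hmem
    · exact h
  -- the isomorphism
  let Ψ : Multiplicative (Fin 2 → F) →* V :=
    { toFun := fun w => coord ρ m (Multiplicative.toAdd w)
      map_one' := coord_zero m
      map_mul' := fun a b => coord_add H m _ _ }
  have hΨinj : Function.Injective Ψ := by
    rw [injective_iff_map_eq_one]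
    intro a ha
    have := coord_injective H hm hm1 (w := Multiplicative.toAdd a) ha
    exact this
  have hΨsurj : Function.Surjective Ψ := by
    intro v
    have hv : v ∈ coordRange ρ H m := by rw [htop]; exact Subgroup.mem_top v
    obtain ⟨w, rfl⟩ := hv
    exact ⟨Multiplicative.ofAdd w, rfl⟩
  let Ψe : Multiplicative (Fin 2 → F) ≃* V := MulEquiv.ofBijective Ψ ⟨hΨinj, hΨsurj⟩
  refine ⟨Ψe.symm, ?_⟩
  intro g v
  obtain ⟨a, rfl⟩ := Ψe.surjective v
  have h1 : ρ g (Ψe a) = Ψe (Multiplicative.ofAdd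
      ((g : Matrix (Fin 2) (Fin 2) F).mulVec (Multiplicative.toAdd a))) :=
    rho_coord H hm g (Multiplicative.toAdd a)
  rw [h1, MulEquiv.symm_apply_apply, MulEquiv.symm_apply_apply]
  rfl

end Cfsg.Agent.Lib.Helper33.SL2Nat
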