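import Mathlib
import Cfsg.Prelude.Def_Transfer
import Cfsg.Prelude.Def_BaumannBlocks
import Cfsg.Agent.Lib.Helper33.SL2Nat.Defs
import Cfsg.Agent.Lib.Helper77.FrakL.SL2Aux

set_option autoImplicit false
set_option linter.unusedSimpArgs false
set_option linter.unusedVariables false
set_option linter.style.haveILetI false

/-!
# S3009, package (T): transfer of the abstract theorem to subgroups of an ambient group (helper33)
-/

namespace Cfsg.Agent.Lib.Helper33.SL2Nat

open Cfsg.Agent.Lib.Helper48.FrakL Cfsg.Agent.Lib.Helper33.FrakL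

open scoped commutatorElement

universe u

/-- The abstract theorem for a group which happens to be commutative. -/
theorem natThm_grp (h : NatThm.{0, u}) {F : Type} [Field F] [Finite F] {p : ℕ} [Fact p.Prime]
    [CharP F p] {W : Type u} [Group W] [Finite W] (hc : ∀ a b : W, a * b = b * a)
    (ρ : Matrix.SpecialLinearGroup (Fin 2) F →* MulAut W) (hp : IsPGroup p W)
    (hirr : ∀ W' : Subgroup W, (∀ (g : Matrix.SpecialLinearGroup (Fin 2) F), ∀ w ∈ W',
      ρ g w ∈ W') → W' = ⊥ ∨ W' = ⊤)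
    (hnt : ∃ (g : Matrix.SpecialLinearGroup (Fin 2) F) (v : W), ρ g v ≠ v)
    (hyp : (∀ (t : F) (v : W) (t' : F), ρ (xe t') (ρ (xe t) v * v⁻¹) = ρ (xe t) v * v⁻¹) ∨
      Nat.card W ≤ Nat.card {v : W // ∀ t : F, ρ (xe t) v = v} ^ 2) :
    ∃ ψ : W ≃* Multiplicative (Fin 2 → F), ∀ (g : Matrix.SpecialLinearGroup (Fin 2) F) (v : W),
      Multiplicative.toAdd (ψ (ρ g v)) =
        (g : Matrix (Fin 2) (Fin 2) F).mulVec (Multiplicative.toAdd (ψ v)) := by
  letI : CommGroup W := { ‹Group W› with mul_comm := hc }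
  exact h ρ hp hirr hnt hyp

section Conj

variable {X : Type u} [Group X]

/-- Conjugation by an element of the normalizer, as an automorphism of the subgroup. -/
def conjAut (V : Subgroup X) (g : X) (hg : g ∈ Subgroup.normalizer (V : Set X)) : MulAut ↥V where
  toFun v := ⟨g * v * g⁻¹, (Subgroup.mem_normalizer_iff.mp hg v).mp v.2⟩
  invFun v := ⟨g⁻¹ * v * g, by
    have := (Subgroup.mem_normalizer_iff.mp hg (g⁻¹ * v * g)).mpr (by
      have e : g * (g⁻¹ * (v : X) * g) * g⁻¹ = v := by group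
      rw [e]
      exact v.2)
    exact this⟩
  left_inv v := by
    apply Subtype.ext
    show g⁻¹ * (g * (v : X) * g⁻¹) * g = v
    group
  right_inv v := by
    apply Subtype.ext
    show g * (g⁻¹ * (v : X) * g) * g⁻¹ = v
    group
  map_mul' a b := by
    apply Subtype.ext
    show g * ((a : X) * b) * g⁻¹ = g * a * g⁻¹ * (g * b * g⁻¹)
    group

theorem conjAut_coe (V : Subgroup X) (g : X) (hg : g ∈ Subgroup.normalizer (V : Set X))
    (v : ↥V) : ((conjAut V g hg v : ↥V) : X) = g * v * g⁻¹ := rfl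

/-- The action of `SL₂(F)` on `V` through an isomorphism `e' : G ≃* SL₂(F)`. -/
def actOf {F : Type} [Field F] (G V : Subgroup X) (hGV : G ≤ Subgroup.normalizer (V : Set X))
    (e' : ↥G ≃* Matrix.SpecialLinearGroup (Fin 2) F) :
    Matrix.SpecialLinearGroup (Fin 2) F →* MulAut ↥V where
  toFun g := conjAut V (e'.symm g : X) (hGV (e'.symm g).2)
  map_one' := by
    ext v
    rw [conjAut_coe, map_one]
    show (1 : X) * v * (1 : X)⁻¹ = v
    group
  map_mul' a b := by
    ext v
    rw [conjAut_coe, map_mul]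
    show ((e'.symm a : X) * (e'.symm b : X)) * v * ((e'.symm a : X) * (e'.symm b : X))⁻¹ =
      (e'.symm a : X) * ((e'.symm b : X) * v * (e'.symm b : X)⁻¹) * (e'.symm a : X)⁻¹
    group

theorem actOf_coe {F : Type} [Field F] (G V : Subgroup X)
    (hGV : G ≤ Subgroup.normalizer (V : Set X))
    (e' : ↥G ≃* Matrix.SpecialLinearGroup (Fin 2) F)
    (g : Matrix.SpecialLinearGroup (Fin 2) F) (v : ↥V) :
    ((actOf G V hGV e' g v : ↥V) : X) = (e'.symm g : X) * v * (e'.symm g : X)⁻¹ := rfl

end Conj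

theorem xe_pow {F : Type} [Field F] (t : F) (k : ℕ) : xe t ^ k = xe (k * t) := by
  induction k with
  | zero => rw [pow_zero, Nat.cast_zero, zero_mul, xe_zero]
  | succ k ih =>
    rw [pow_succ, ih, xe_add]
    congr 1
    push_cast
    ring

theorem charP_of_card {F : Type} [Field F] [Fintype F] {p : ℕ} [hp : Fact p.Prime] (n : ℕ)
    (hF : Fintype.card F = p ^ n) : CharP F p := by
  obtain ⟨q, hq⟩ := CharP.exists F
  haveI := hq
  obtain ⟨m, hqp, hm⟩ := FiniteField.card F q
  have hn : n ≠ 0 := by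
    rintro rfl
    rw [pow_zero] at hF
    have := Fintype.one_lt_card (α := F)
    omega
  have hdvd : p ∣ q ^ (m : ℕ) := by
    rw [← hm, hF]
    exact dvd_pow_self p hn
  have hpq : p = q := (Nat.prime_dvd_prime_iff_eq hp.out hqp).mp (hp.out.dvd_of_dvd_pow hdvd)
  rw [hpq]
  exact hq

/-- Package (T): the frozen statement of S3009 from the abstract theorem. -/
theorem s3009_of_natThm (h : NatThm.{0, u}) {X : Type u} [Group X] [Finite X] {p : ℕ}
    [Fact p.Prime] (G V : Subgroup X) (hV : Cfsg.IsElementaryAbelian p V)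
    (hGV : G ≤ Subgroup.normalizer (V : Set X)) (F : Type) [Field F] [Fintype F] (n : ℕ)
    (hF : Fintype.card F = p ^ n)
    (hG : Nonempty (↥G ≃* Matrix.SpecialLinearGroup (Fin 2) F))
    (hirr : ∀ U : Subgroup X, U ≤ V → G ≤ Subgroup.normalizer (U : Set X) → U = ⊥ ∨ U = V)
    (hnt : ⁅V, G⁆ ≠ ⊥) (S : Sylow p ↥G)
    (hyp : ⁅⁅V, (S : Subgroup ↥G).map G.subtype⁆, (S : Subgroup ↥G).map G.subtype⁆ = ⊥ ∨
      Nat.card ↥V ≤ Nat.card ↥(V ⊓ Subgroup.centralizer
        (((S : Subgroup ↥G).map G.subtype : Subgroup X) : Set X)) ^ 2) :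
    Cfsg.ActsAsSL2OnSection F ⊤ G V ⊥ := by
  haveI hchar : CharP F p := charP_of_card n hF
  obtain ⟨e⟩ := hG
  -- conjugate the Sylow subgroup into the upper unitriangular group
  have hP : IsPGroup p ↥((S : Subgroup ↥G).map e.toMonoidHom) := S.isPGroup'.map _
  obtain ⟨k, hk⟩ := Cfsg.Agent.Lib.Helper77.FrakL.sl2PGroupConj
    ((S : Subgroup ↥G).map e.toMonoidHom) hP
  obtain ⟨e', he'⟩ : ∃ e' : ↥G ≃* Matrix.SpecialLinearGroup (Fin 2) F,
      ∀ x : ↥G, e' x = k * e x * k⁻¹ := ⟨e.trans (MulAut.conj k), fun x => rfl⟩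
  have hS1 : ∀ x ∈ (S : Subgroup ↥G), ∃ t : F, e' x = xe t := by
    intro x hx
    rw [he']
    exact hk _ (Subgroup.mem_map_of_mem _ hx)
  -- the preimage of the unitriangular group is a `p`-group, hence equal to `S`
  let Q : Subgroup ↥G :=
    { carrier := {x | ∃ t : F, e' x = xe t}
      mul_mem' := by
        rintro a b ⟨t, ht⟩ ⟨t', ht'⟩
        exact ⟨t + t', by rw [map_mul, ht, ht', xe_add]⟩
      one_mem' := ⟨0, by rw [map_one, xe_zero]⟩
      inv_mem' := by
        rintro a ⟨t, ht⟩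
        refine ⟨-t, ?_⟩
        rw [map_inv, ht]
        apply inv_eq_of_mul_eq_one_right
        rw [xe_add, add_neg_cancel, xe_zero] }
  have hQp : IsPGroup p ↥Q := by
    intro x
    refine ⟨1, ?_⟩
    obtain ⟨t, ht⟩ := x.2
    apply Subtype.ext
    apply e'.injective
    rw [pow_one, Subgroup.coe_pow, map_pow, ht, xe_pow, CharP.cast_eq_zero, zero_mul, xe_zero]
    rw [Subgroup.coe_one, map_one]
  have hQS : Q = (S : Subgroup ↥G) := S.is_maximal' hQp (fun x hx => hS1 x hx)
  have hS2 : ∀ t : F, e'.symm (xe t) ∈ (S : Subgroup ↥G) := by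
    intro t
    rw [← hQS]
    exact ⟨t, by rw [MulEquiv.apply_symm_apply]⟩
  have hS2' : ∀ t : F, ((e'.symm (xe t) : ↥G) : X) ∈ (S : Subgroup ↥G).map G.subtype := by
    intro t
    exact ⟨_, hS2 t, rfl⟩
  -- the module
  have hc : ∀ a b : ↥V, a * b = b * a := fun a b => hV.1.is_comm.comm a b
  have hpV : IsPGroup p ↥V := by
    intro v
    refine ⟨1, ?_⟩
    apply Subtype.ext
    rw [pow_one, Subgroup.coe_pow, Subgroup.coe_one]
    exact hV.2 v v.2
  -- irreducibility
  have hirr' : ∀ W' : Subgroup ↥V, (∀ (g : Matrix.SpecialLinearGroup (Fin 2) F), ∀ w ∈ W',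
      actOf G V hGV e' g w ∈ W') → W' = ⊥ ∨ W' = ⊤ := by
    intro W' hW'
    have hle : W'.map V.subtype ≤ V := by
      rintro _ ⟨w, _, rfl⟩
      exact w.2
    have hnorm : G ≤ Subgroup.normalizer ((W'.map V.subtype : Subgroup X) : Set X) := by
      intro g hg
      rw [Subgroup.mem_normalizer_iff]
      intro x
      constructor
      · rintro ⟨w, hw, rfl⟩
        refine ⟨actOf G V hGV e' (e' ⟨g, hg⟩) w, hW' _ w hw, ?_⟩
        show ((actOf G V hGV e' (e' ⟨g, hg⟩) w : ↥V) : X) = g * (w : X) * g⁻¹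
        rw [actOf_coe, MulEquiv.symm_apply_apply]
      · rintro ⟨w, hw, hwx⟩
        have hg' : g⁻¹ ∈ G := G.inv_mem hg
        refine ⟨actOf G V hGV e' (e' ⟨g⁻¹, hg'⟩) w, hW' _ w hw, ?_⟩
        show ((actOf G V hGV e' (e' ⟨g⁻¹, hg'⟩) w : ↥V) : X) = x
        rw [actOf_coe, MulEquiv.symm_apply_apply]
        have hwx' : (w : X) = g * x * g⁻¹ := hwx
        show g⁻¹ * (w : X) * g⁻¹⁻¹ = x
        rw [hwx']
        group
    rcases hirr _ hle hnorm with h0 | h0
    · left
      exact (Subgroup.map_eq_bot_iff_of_injective W' V.subtype_injective).mp h0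
    · right
      rw [eq_top_iff]
      intro v _
      have hv : (v : X) ∈ W'.map V.subtype := by rw [h0]; exact v.2
      obtain ⟨w, hw, hwv⟩ := hv
      have : w = v := Subtype.ext hwv
      rw [← this]
      exact hw
  -- nontriviality
  have hnt' : ∃ (g : Matrix.SpecialLinearGroup (Fin 2) F) (v : ↥V), actOf G V hGV e' g v ≠ v := by
    by_contra hcon
    push Not at hcon
    apply hnt
    rw [Subgroup.commutator_eq_bot_iff_le_centralizer]
    intro v hv
    rw [Subgroup.mem_centralizer_iff]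
    intro g hg
    have h1 := congrArg (Subtype.val) (hcon (e' ⟨g, hg⟩) ⟨v, hv⟩)
    rw [actOf_coe, MulEquiv.symm_apply_apply] at h1
    have h2 : g * v * g⁻¹ = v := h1
    calc g * v = g * v * g⁻¹ * g := by group
      _ = v * g := by rw [h2]
  -- the hypothesis
  have hyp' : (∀ (t : F) (v : ↥V) (t' : F), actOf G V hGV e' (xe t')
        (actOf G V hGV e' (xe t) v * v⁻¹) = actOf G V hGV e' (xe t) v * v⁻¹) ∨
      Nat.card ↥V ≤ Nat.card {v : ↥V // ∀ t : F, actOf G V hGV e' (xe t) v = v} ^ 2 := by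
    rcases hyp with hq | hcard
    · left
      intro t v t'
      apply Subtype.ext
      rw [actOf_coe]
      have hcomm : ((actOf G V hGV e' (xe t) v * v⁻¹ : ↥V) : X) ∈
          ⁅V, (S : Subgroup ↥G).map G.subtype⁆ := by
        rw [Subgroup.commutator_comm]
        have := Subgroup.commutator_mem_commutator (hS2' t) v.2
        have e1 : ((actOf G V hGV e' (xe t) v * v⁻¹ : ↥V) : X) =
            ⁅((e'.symm (xe t) : ↥G) : X), (v : X)⁆ := by
          rw [Subgroup.coe_mul, actOf_coe, Subgroup.coe_inv]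
          rfl
        rw [e1]
        exact this
      have h2 := Subgroup.commutator_mem_commutator hcomm (hS2' t')
      rw [hq, Subgroup.mem_bot, commutatorElement_def] at h2
      have h3 : ∀ a b : X, a * b * a⁻¹ * b⁻¹ = 1 → b * a * b⁻¹ = a := by
        intro a b hab
        have : a * b = b * a := by
          calc a * b = a * b * a⁻¹ * b⁻¹ * (b * a) := by group
            _ = b * a := by rw [hab, one_mul]
        calc b * a * b⁻¹ = a * b * b⁻¹ := by rw [this]
          _ = a := by group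
      exact h3 _ _ h2
    · right
      refine hcard.trans (Nat.pow_le_pow_left ?_ 2)
      refine Nat.card_le_card_of_injective
        (fun x : ↥(V ⊓ Subgroup.centralizer
            (((S : Subgroup ↥G).map G.subtype : Subgroup X) : Set X)) =>
          (⟨⟨(x : X), (Subgroup.mem_inf.mp x.2).1⟩, by
            intro t
            apply Subtype.ext
            rw [actOf_coe]
            have hcen := Subgroup.mem_centralizer_iff.mp (Subgroup.mem_inf.mp x.2).2 _ (hS2' t)
            show ((e'.symm (xe t) : ↥G) : X) * (x : X) * ((e'.symm (xe t) : ↥G) : X)⁻¹ = x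
            rw [hcen]
            group⟩ : {v : ↥V // ∀ t : F, actOf G V hGV e' (xe t) v = v})) ?_
      intro x y hxy
      apply Subtype.ext
      exact congrArg (fun z : {v : ↥V // ∀ t : F, actOf G V hGV e' (xe t) v = v} =>
        ((z.1 : ↥V) : X)) hxy
  obtain ⟨ψ, hψ⟩ := natThm_grp h hc (actOf G V hGV e') hpV hirr' hnt' hyp'
  refine ⟨hGV, bot_le, e'.toMonoidHom, ψ.toMonoidHom, ?_, ψ.surjective, ?_, ?_⟩
  · rw [MonoidHom.range_eq_top]
    exact e'.surjective
  · intro u
    constructor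
    · intro hu
      have : u = 1 := ψ.injective (hu.trans (map_one ψ).symm)
      rw [this]
      exact Subgroup.mem_bot.mpr rfl
    · intro hu
      have : u = 1 := Subtype.ext (Subgroup.mem_bot.mp hu)
      rw [this]
      exact map_one _
  · intro g u
    refine ⟨actOf G V hGV e' (e' g) u, ?_, hψ (e' g) u⟩
    rw [actOf_coe, MulEquiv.symm_apply_apply]

end Cfsg.Agent.Lib.Helper33.SL2Nat
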